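import Mathlib
import Cfsg.Prelude.Def_OddOrderLocal
import Cfsg.Agent.Lib.Helper23.PGroupEA
import Cfsg.Agent.Lib.Helper24.PRank

/-!
Bender–Glauberman Lemma 10.5 and Corollary 10.6 (statements S1408, S1409), derived from the
Uniqueness Theorem 9.6 (S1403) taken as a hypothesis.
-/

set_option autoImplicit false

namespace Cfsg.Agent.Lib.Helper20.BG

open Cfsg

/-- An elementary abelian `p`-subgroup is a `p`-group. -/
theorem isPGroup_of_ea {G : Type*} [Group G] {p : ℕ} {D : Subgroup G}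
    (hD : Cfsg.IsElementaryAbelian p D) : IsPGroup p D := by
  intro ⟨d, hd⟩
  refine ⟨1, ?_⟩
  apply Subtype.ext
  rw [pow_one]
  exact hD.2 d hd

theorem ea_comm {G : Type*} [Group G] {p : ℕ} {D : Subgroup G}
    (hD : Cfsg.IsElementaryAbelian p D) : ∀ a ∈ D, ∀ b ∈ D, a * b = b * a := by
  intro a ha b hb
  have := (isMulCommutative_iff.mp hD.1) ⟨a, ha⟩ ⟨b, hb⟩
  exact congrArg Subtype.val this

/-- A subgroup of prime order `p` is elementary abelian. -/
theorem ea_of_card_prime {G : Type*} [Group G] {p : ℕ} [hp : Fact p.Prime] {X : Subgroup G}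
    (hX : Nat.card X = p) : Cfsg.IsElementaryAbelian p X := by
  haveI : Finite X := Nat.finite_of_card_ne_zero (by rw [hX]; exact hp.out.ne_zero)
  have hc : IsCyclic X := isCyclic_of_prime_card hX
  refine ⟨?_, ?_⟩
  · rw [isMulCommutative_iff]
    intro a b
    obtain ⟨g, hg⟩ := hc.exists_generator
    obtain ⟨m, rfl⟩ := Subgroup.mem_zpowers_iff.mp (hg a)
    obtain ⟨n, rfl⟩ := Subgroup.mem_zpowers_iff.mp (hg b)
    rw [← zpow_add, ← zpow_add, add_comm]
  · intro a ha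
    have := pow_card_eq_one' (G := X) (x := ⟨a, ha⟩)
    rw [hX] at this
    exact congrArg Subtype.val this

/-- A `p`-subgroup `D ≠ 1` of a maximal subgroup `M` lying in no other maximal subgroup forces
`p ∈ σ(M)`. -/
theorem mem_sigma_of_unique {G : Type*} [Group G] [Finite G] (hG : Cfsg.IsMinSimpleOddOrder G)
    {M : Subgroup G} (hM : IsCoatom M) {p : ℕ} [hp : Fact p.Prime] {D : Subgroup G} (hDM : D ≤ M)
    (hDp : IsPGroup p D) (hD1 : D ≠ ⊥) (hDU : Cfsg.InUniqueMaximal D) : p ∈ Cfsg.sigma M := by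
  have hsimple : IsSimpleGroup G := hG.2.1
  have hdvdD : p ∣ Nat.card D := by
    obtain ⟨n, hn⟩ := IsPGroup.iff_card.mp hDp
    rw [hn]
    have : n ≠ 0 := by
      intro h0
      rw [h0, pow_zero] at hn
      exact hD1 (Subgroup.card_eq_one.mp hn)
    exact dvd_pow_self p this
  have hdvdM : p ∣ Nat.card M := hdvdD.trans (Subgroup.card_dvd_of_le hDM)
  have hDp' : IsPGroup p (D.subgroupOf M) := by
    have e : ↥(D.subgroupOf M) ≃* ↥D := Subgroup.subgroupOfEquivOfLe hDM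
    exact hDp.of_equiv e.symm
  obtain ⟨P₀, hP₀⟩ := hDp'.exists_le_sylow
  obtain ⟨P, hP⟩ : ∃ P : Subgroup G, P = (P₀ : Subgroup M).map M.subtype := ⟨_, rfl⟩
  have hDP : D ≤ P := by
    intro d hd
    rw [hP]
    exact ⟨⟨d, hDM hd⟩, hP₀ (Subgroup.mem_subgroupOf.mpr hd), rfl⟩
  have hPM : P ≤ M := by rw [hP]; exact Subgroup.map_subtype_le _
  refine ⟨hp.out, hdvdM, P₀, ?_⟩
  rw [← hP]
  have hNtop : Subgroup.normalizer (P : Set G) ≠ ⊤ := by
    intro htop
    have hPn : P.Normal := Subgroup.normalizer_eq_top_iff.mp htop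
    rcases hPn.eq_bot_or_eq_top with h | h
    · apply hD1
      rw [eq_bot_iff, ← h]
      exact hDP
    · apply hM.1
      rw [eq_top_iff, ← h]
      exact hPM
  obtain ⟨M', hM', hNM'⟩ := (eq_top_or_exists_le_coatom _).resolve_left hNtop
  obtain ⟨M₀, -, huniq⟩ := hDU
  have h1 : M = M₀ := huniq M ⟨hM, hDM⟩
  have h2 : M' = M₀ := huniq M' ⟨hM', hDP.trans (Subgroup.le_normalizer.trans hNM')⟩
  rw [h1, ← h2]
  exact hNM'

/-- BG Lemma 10.5, second part. -/
theorem s1408_max {G : Type*} [Group G] [Finite G] (hG : Cfsg.IsMinSimpleOddOrder G)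
    (h1403 : ∀ K : Subgroup G, K ≠ ⊤ → ¬ Cfsg.RankLE 1 K →
      (¬ Cfsg.RankLE 2 K ∨ ¬ Cfsg.RankLE 2 (Subgroup.centralizer (K : Set G))) →
      Cfsg.InUniqueMaximal K)
    (M : Subgroup G) (hM : IsCoatom M) (p : ℕ) [hp : Fact p.Prime] (hps : p ∉ Cfsg.sigma M)
    (A : Subgroup G) (hAM : A ≤ M) (hA : Cfsg.IsElementaryAbelian p A) (hA2 : Nat.card A = p ^ 2)
    (B : Subgroup G) (hB : Cfsg.IsElementaryAbelian p B) (hAB : A ≤ B) : B = A := by
  by_contra hne
  apply hps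
  have hpp : p.Prime := hp.out
  have hcard : p ^ 2 < Nat.card B := by
    rw [← hA2]
    by_contra hle
    rw [not_lt] at hle
    exact hne (Subgroup.eq_of_le_of_card_ge hAB hle).symm
  have hBC : B ≤ Subgroup.centralizer (A : Set G) := by
    intro b hb a ha
    exact ea_comm hB a (hAB ha) b hb
  have hA1 : A ≠ ⊥ := by
    intro h
    rw [h, Subgroup.card_bot] at hA2
    have := Nat.one_lt_pow (by norm_num : 2 ≠ 0) hpp.one_lt
    omega
  have hAtop : A ≠ ⊤ := by
    intro h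
    apply hM.1
    rw [eq_top_iff, ← h]
    exact hAM
  have hAr1 : ¬ Cfsg.RankLE 1 A := by
    intro h
    have h1 := (Cfsg.Agent.Lib.Helper24.pRankLE_subgroup_iff p 1 A).mp (h p hpp) A le_rfl
      (ea_comm hA) hA.2
    rw [hA2, pow_one] at h1
    have : p < p ^ 2 := by
      have := Nat.pow_lt_pow_right hpp.one_lt (by norm_num : 1 < 2)
      rwa [pow_one] at this
    omega
  have hCr : ¬ Cfsg.RankLE 2 (Subgroup.centralizer (A : Set G)) := by
    intro h
    exact Cfsg.Agent.Lib.Helper23.not_pRankLE_of_le p hB hBC hcard (h p hpp)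
  have hAU := h1403 A hAtop hAr1 (Or.inr hCr)
  exact mem_sigma_of_unique hG hM hAM (isPGroup_of_ea hA) hA1 hAU

/-- A group of `p`-rank exactly 2 contains an elementary abelian subgroup of order `p ^ 2`. -/
theorem exists_ea_sq {G : Type*} [Group G] [Finite G] (M : Subgroup G) (p : ℕ) [hp : Fact p.Prime]
    (hr2 : Cfsg.PRankLE p 2 M) (hr1 : ¬ Cfsg.PRankLE p 1 M) :
    ∃ A : Subgroup G, A ≤ M ∧ Cfsg.IsElementaryAbelian p A ∧ Nat.card A = p ^ 2 := by
  have hpp : p.Prime := hp.out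
  rw [Cfsg.Agent.Lib.Helper24.pRankLE_subgroup_iff] at hr1 hr2
  rw [not_forall] at hr1
  obtain ⟨A, hA⟩ := hr1
  rw [Classical.not_imp] at hA
  obtain ⟨hAM, hA⟩ := hA
  rw [Classical.not_imp] at hA
  obtain ⟨hAc, hA⟩ := hA
  rw [Classical.not_imp] at hA
  obtain ⟨hAe, hAcard⟩ := hA
  have hle := hr2 A hAM hAc hAe
  have hEA : Cfsg.IsElementaryAbelian p A := by
    refine ⟨?_, hAe⟩
    rw [isMulCommutative_iff]
    rintro ⟨a, ha⟩ ⟨b, hb⟩
    exact Subtype.ext (hAc a ha b hb)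
  refine ⟨A, hAM, hEA, ?_⟩
  obtain ⟨n, hn⟩ := IsPGroup.iff_card.mp (isPGroup_of_ea hEA)
  rw [hn] at hAcard hle ⊢
  rw [not_le, pow_one] at hAcard
  have h1 : 1 < n := by
    by_contra h
    have : n ≤ 1 := by omega
    have := Nat.pow_le_pow_right hpp.pos this
    rw [pow_one] at this
    omega
  have h2 : n ≤ 2 := (Nat.pow_le_pow_iff_right hpp.one_lt).mp hle
  have : n = 2 := by omega
  rw [this]

/-- BG Lemma 10.5 from the Uniqueness Theorem. -/
theorem s1408_core {G : Type*} [Group G] [Finite G] (hG : Cfsg.IsMinSimpleOddOrder G)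
    (h1403 : ∀ K : Subgroup G, K ≠ ⊤ → ¬ Cfsg.RankLE 1 K →
      (¬ Cfsg.RankLE 2 K ∨ ¬ Cfsg.RankLE 2 (Subgroup.centralizer (K : Set G))) →
      Cfsg.InUniqueMaximal K)
    (M : Subgroup G) (hM : IsCoatom M) (p : ℕ) [hp : Fact p.Prime] (hps : p ∉ Cfsg.sigma M)
    (hr2 : Cfsg.PRankLE p 2 M) (hr1 : ¬ Cfsg.PRankLE p 1 M) :
    ¬ Cfsg.IsIdealPrime p G ∧ ∀ A : Subgroup G, A ≤ M → Cfsg.IsElementaryAbelian p A →
      Nat.card A = p ^ 2 →
        ∀ B : Subgroup G, Cfsg.IsElementaryAbelian p B → A ≤ B → B = A := by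
  have hmax := s1408_max hG h1403 M hM p hps
  refine ⟨?_, hmax⟩
  rintro ⟨-, -, hideal⟩
  obtain ⟨A, hAM, hA, hA2⟩ := exists_ea_sq M p hr2 hr1
  obtain ⟨P, hAP⟩ := (isPGroup_of_ea hA).exists_le_sylow
  obtain ⟨B, -, hB, hAB⟩ := hideal P A hAP hA hA2
  exact hAB.ne (hmax A hAM hA hA2 B hB hAB.le).symm

/-- Two distinct subgroups of order `p` in a `p`-subgroup `P` give an elementary abelian subgroup
of `P` of order greater than `p` containing the first one. -/
theorem ea_of_two_order_p {G : Type*} [Group G] [Finite G] {p : ℕ} [hp : Fact p.Prime]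
    {P X Y : Subgroup G} (hP : IsPGroup p P) (hXP : X ≤ P) (hYP : Y ≤ P)
    (hX : Nat.card X = p) (hY : Nat.card Y = p) (hXY : X ≠ Y) :
    ∃ A : Subgroup G, A ≤ P ∧ Cfsg.IsElementaryAbelian p A ∧ X ≤ A ∧ p < Nat.card A := by
  have hpp : p.Prime := hp.out
  have hXe := ea_of_card_prime hX
  have hYe := ea_of_card_prime hY
  have hPnt : Nontrivial ↥P := by
    have hXnt : Nontrivial ↥X := Finite.one_lt_card_iff_nontrivial.mp (by rw [hX]; exact hpp.one_lt)
    obtain ⟨⟨x, hx⟩, hx1⟩ := exists_ne (1 : ↥X)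
    refine ⟨⟨⟨x, hXP hx⟩, 1, ?_⟩⟩
    intro h
    apply hx1
    apply Subtype.ext
    have h' := congrArg Subtype.val h
    exact h'
  obtain ⟨z, hz, hzo⟩ := Cfsg.Agent.Lib.Helper23.exists_central_orderOf_eq p hP
  obtain ⟨z', hz'⟩ : ∃ z' : G, z' = (z : G) := ⟨_, rfl⟩
  have hz'P : z' ∈ P := by rw [hz']; exact z.2
  have hz'o : orderOf z' = p := by rw [hz', Subgroup.orderOf_coe]; exact hzo
  have hz'c : ∀ g ∈ P, g * z' = z' * g := by
    intro g hg
    have := (Subgroup.mem_center_iff.mp hz) ⟨g, hg⟩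
    rw [hz']
    exact congrArg Subtype.val this
  have hz'pow : ∀ b ∈ Subgroup.zpowers z', ∀ g ∈ P, g * b = b * g := by
    intro b hb g hg
    obtain ⟨k, rfl⟩ := Subgroup.mem_zpowers_iff.mp hb
    have : Commute g z' := hz'c g hg
    exact (this.zpow_right k).eq
  have hZcard : Nat.card (Subgroup.zpowers z') = p := by rw [Nat.card_zpowers, hz'o]
  have hZe := ea_of_card_prime hZcard
  have hZP : Subgroup.zpowers z' ≤ P := by
    rw [Subgroup.zpowers_le]; exact hz'P
  have hgt : ∀ {A B : Subgroup G}, Nat.card A = p → A ≤ B → ¬ B ≤ A → p < Nat.card B := by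
    intro A B hA hAB hBA
    by_contra hle
    rw [not_lt, ← hA] at hle
    have := Subgroup.eq_of_le_of_card_ge hAB hle
    exact hBA (by rw [this])
  by_cases hzX : z' ∈ X
  · -- `X` is central in `P`
    have hXZ : Subgroup.zpowers z' = X := by
      apply Subgroup.eq_of_le_of_card_ge
      · rw [Subgroup.zpowers_le]; exact hzX
      · rw [hX, hZcard]
    have hcomm : ∀ a ∈ X, ∀ b ∈ Y, a * b = b * a := by
      intro a ha b hb
      rw [← hXZ] at ha
      exact (hz'pow a ha b (hYP hb)).symm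
    refine ⟨X ⊔ Y, sup_le hXP hYP, Cfsg.Agent.Lib.Helper23.isEA_sup hXe hYe hcomm, le_sup_left, ?_⟩
    apply hgt hX le_sup_left
    intro hle
    have hYX : Y ≤ X := le_sup_right.trans hle
    exact hXY (Subgroup.eq_of_le_of_card_ge hYX (by rw [hX, hY])).symm
  · have hcomm : ∀ a ∈ X, ∀ b ∈ Subgroup.zpowers z', a * b = b * a := by
      intro a ha b hb
      exact hz'pow b hb a (hXP ha)
    refine ⟨X ⊔ Subgroup.zpowers z', sup_le hXP hZP,
      Cfsg.Agent.Lib.Helper23.isEA_sup hXe hZe hcomm, le_sup_left, ?_⟩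
    apply hgt hX le_sup_left
    intro hle
    apply hzX
    exact hle (Subgroup.mem_sup_right (Subgroup.mem_zpowers z'))

/-- BG Corollary 10.6 from the Uniqueness Theorem and Lemma 10.5. -/
theorem s1409_core {G : Type*} [Group G] [Finite G] (hG : Cfsg.IsMinSimpleOddOrder G)
    (h1403 : ∀ K : Subgroup G, K ≠ ⊤ → ¬ Cfsg.RankLE 1 K →
      (¬ Cfsg.RankLE 2 K ∨ ¬ Cfsg.RankLE 2 (Subgroup.centralizer (K : Set G))) →
      Cfsg.InUniqueMaximal K)
    (M : Subgroup G) (hM : IsCoatom M) (p : ℕ) [hp : Fact p.Prime] (hps : p ∉ Cfsg.sigma M)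
    (X : Subgroup G) (hX : Nat.card X = p)
    (hNX : Subgroup.normalizer (X : Set G) ≤ M) :
    (Cfsg.PRankLE p 2 M ∧ ¬ Cfsg.PRankLE p 1 M) ∧ ¬ Cfsg.IsIdealPrime p G ∧
      ∃ A : Subgroup G, Cfsg.IsElementaryAbelian p A ∧ Nat.card A = p ^ 2 ∧ X ≤ A := by
  classical
  have hpp : p.Prime := hp.out
  have hXM : X ≤ M := Subgroup.le_normalizer.trans hNX
  have hXe := ea_of_card_prime hX
  have hXp : IsPGroup p X := isPGroup_of_ea hXe
  have hdvdM : p ∣ Nat.card M := by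
    have := Subgroup.card_dvd_of_le hXM
    rwa [hX] at this
  have hMtop : M ≠ ⊤ := hM.1
  -- a Sylow `p`-subgroup of `M` containing `X`
  have hXp' : IsPGroup p (X.subgroupOf M) := by
    have e : ↥(X.subgroupOf M) ≃* ↥X := Subgroup.subgroupOfEquivOfLe hXM
    exact hXp.of_equiv e.symm
  obtain ⟨P₀, hP₀⟩ := hXp'.exists_le_sylow
  obtain ⟨P, hP⟩ : ∃ P : Subgroup G, P = (P₀ : Subgroup M).map M.subtype := ⟨_, rfl⟩
  have hXP : X ≤ P := by
    intro d hd
    rw [hP]
    exact ⟨⟨d, hXM hd⟩, hP₀ (Subgroup.mem_subgroupOf.mpr hd), rfl⟩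
  have hPM : P ≤ M := by rw [hP]; exact Subgroup.map_subtype_le _
  have hPp : IsPGroup p P := by
    rw [hP]
    exact P₀.isPGroup'.map _
  have hNP : ¬ Subgroup.normalizer (P : Set G) ≤ M := by
    intro h
    apply hps
    refine ⟨hpp, hdvdM, P₀, ?_⟩
    rw [← hP]
    exact h
  -- rank at most 2
  have hr2 : Cfsg.PRankLE p 2 M := by
    by_contra hr
    obtain ⟨D, hDe, hDM, hDcard⟩ := Cfsg.Agent.Lib.Helper23.exists_EA_of_not_pRankLE p hr
    have hD1 : D ≠ ⊥ := by
      intro h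
      rw [h, Subgroup.card_bot] at hDcard
      have := Nat.one_le_pow 2 p hpp.pos
      omega
    have hDtop : D ≠ ⊤ := by
      intro h
      apply hMtop
      rw [eq_top_iff, ← h]
      exact hDM
    have hDr2 : ¬ Cfsg.RankLE 2 D := by
      intro h
      have h1 := (Cfsg.Agent.Lib.Helper24.pRankLE_subgroup_iff p 2 D).mp (h p hpp) D le_rfl
        (ea_comm hDe) hDe.2
      omega
    have hDr1 : ¬ Cfsg.RankLE 1 D := by
      intro h
      have h1 := (Cfsg.Agent.Lib.Helper24.pRankLE_subgroup_iff p 1 D).mp (h p hpp) D le_rfl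
        (ea_comm hDe) hDe.2
      have : p ^ 1 ≤ p ^ 2 := Nat.pow_le_pow_right hpp.pos (by norm_num)
      omega
    have hDU := h1403 D hDtop hDr1 (Or.inl hDr2)
    exact hps (mem_sigma_of_unique hG hM hDM (isPGroup_of_ea hDe) hD1 hDU)
  -- rank at least 2
  have hr1 : ¬ Cfsg.PRankLE p 1 M := by
    intro hr
    apply hNP
    refine le_trans ?_ hNX
    intro g hg
    rw [Subgroup.mem_normalizer_iff] at hg ⊢
    -- the conjugate of `X` by `g` is a subgroup of order `p` of `P`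
    obtain ⟨Y, hY⟩ : ∃ Y : Subgroup G, Y = X.map (MulAut.conj g).toMonoidHom := ⟨_, rfl⟩
    have hYcard : Nat.card Y = p := by
      rw [hY, Subgroup.card_map_of_injective (MulAut.conj g).injective, hX]
    have hYP : Y ≤ P := by
      rw [hY]
      rintro _ ⟨x, hx, rfl⟩
      exact (hg x).mp (hXP hx)
    have hYX : X = Y := by
      by_contra hne
      obtain ⟨A, hAP, hAe, -, hAcard⟩ := ea_of_two_order_p hPp hXP hYP hX hYcard hne
      have h1 := (Cfsg.Agent.Lib.Helper24.pRankLE_subgroup_iff p 1 M).mp hr A (hAP.trans hPM)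
        (ea_comm hAe) hAe.2
      rw [pow_one] at h1
      omega
    intro x
    constructor
    · intro hx
      rw [hYX, hY]
      exact ⟨x, hx, rfl⟩
    · intro hx
      rw [hYX, hY] at hx
      obtain ⟨x', hx', hxx'⟩ := hx
      have : x' = x := by
        have e : g * x' * g⁻¹ = g * x * g⁻¹ := hxx'
        have e2 : g⁻¹ * (g * x' * g⁻¹) * g = g⁻¹ * (g * x * g⁻¹) * g := by rw [e]
        have l1 : g⁻¹ * (g * x' * g⁻¹) * g = x' := by group
        have l2 : g⁻¹ * (g * x * g⁻¹) * g = x := by group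
        rw [l1, l2] at e2
        exact e2
      rw [← this]; exact hx'
  refine ⟨⟨hr2, hr1⟩, (s1408_core hG h1403 M hM p hps hr2 hr1).1, ?_⟩
  -- an elementary abelian subgroup of order `p ^ 2` containing `X`
  obtain ⟨D, hDM, hDe, hD2⟩ := exists_ea_sq M p hr2 hr1
  have hcardA : ∀ A : Subgroup G, A ≤ M → Cfsg.IsElementaryAbelian p A → p < Nat.card A →
      Nat.card A = p ^ 2 := by
    intro A hAM hAe hAcard
    have hle := (Cfsg.Agent.Lib.Helper24.pRankLE_subgroup_iff p 2 M).mp hr2 A hAM (ea_comm hAe) hAe.2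
    obtain ⟨n, hn⟩ := IsPGroup.iff_card.mp (isPGroup_of_ea hAe)
    rw [hn] at hAcard hle ⊢
    have h1 : 1 < n := by
      by_contra h
      have : n ≤ 1 := by omega
      have := Nat.pow_le_pow_right hpp.pos this
      rw [pow_one] at this
      omega
    have h2 : n ≤ 2 := (Nat.pow_le_pow_iff_right hpp.one_lt).mp hle
    have : n = 2 := by omega
    rw [this]
  -- move `D` into `P`
  have hDp' : IsPGroup p (D.subgroupOf M) := by
    have e : ↥(D.subgroupOf M) ≃* ↥D := Subgroup.subgroupOfEquivOfLe hDM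
    exact (isPGroup_of_ea hDe).of_equiv e.symm
  obtain ⟨Q₀, hQ₀⟩ := hDp'.exists_le_sylow
  obtain ⟨m, hm⟩ := MulAction.exists_smul_eq M Q₀ P₀
  obtain ⟨D', hD'⟩ : ∃ D' : Subgroup G, D' = D.map (MulAut.conj (m : G)).toMonoidHom := ⟨_, rfl⟩
  have hD'e : Cfsg.IsElementaryAbelian p D' := by
    rw [hD']
    refine ⟨?_, ?_⟩
    · rw [isMulCommutative_iff]
      rintro ⟨_, ⟨a, ha, rfl⟩⟩ ⟨_, ⟨b, hb, rfl⟩⟩
      apply Subtype.ext
      show (MulAut.conj (m : G)).toMonoidHom a * (MulAut.conj (m : G)).toMonoidHom b =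
        (MulAut.conj (m : G)).toMonoidHom b * (MulAut.conj (m : G)).toMonoidHom a
      rw [← map_mul, ← map_mul, ea_comm hDe a ha b hb]
    · rintro _ ⟨a, ha, rfl⟩
      rw [← map_pow, hDe.2 a ha, map_one]
  have hD'2 : Nat.card D' = p ^ 2 := by
    rw [hD', Subgroup.card_map_of_injective (MulAut.conj (m : G)).injective, hD2]
  have hD'P : D' ≤ P := by
    rw [hD', hP]
    rintro _ ⟨d, hd, rfl⟩
    have hdQ : (⟨d, hDM hd⟩ : M) ∈ (Q₀ : Subgroup M) := hQ₀ (Subgroup.mem_subgroupOf.mpr hd)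
    have hmem : m * ⟨d, hDM hd⟩ * m⁻¹ ∈ (P₀ : Subgroup M) := by
      rw [← hm, Sylow.coe_subgroup_smul]
      exact Subgroup.smul_mem_pointwise_smul _ _ _ hdQ
    exact ⟨m * ⟨d, hDM hd⟩ * m⁻¹, hmem, rfl⟩
  by_cases hXD : X ≤ D'
  · exact ⟨D', hD'e, hD'2, hXD⟩
  · -- a subgroup of order `p` of `D'` different from `X`
    have hD'nt : Nontrivial ↥D' := Finite.one_lt_card_iff_nontrivial.mp (by
      rw [hD'2]; exact Nat.one_lt_pow (by norm_num) hpp.one_lt)
    obtain ⟨⟨y, hy⟩, hy1⟩ := exists_ne (1 : ↥D')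
    have hy1' : y ≠ 1 := fun h => hy1 (Subtype.ext h)
    have hyo : orderOf y = p := by
      have := orderOf_dvd_of_pow_eq_one (hD'e.2 y hy)
      rcases (Nat.dvd_prime hpp).mp this with h | h
      · exact absurd (orderOf_eq_one_iff.mp h) hy1'
      · exact h
    have hYcard : Nat.card (Subgroup.zpowers y) = p := by rw [Nat.card_zpowers, hyo]
    have hYD : Subgroup.zpowers y ≤ D' := by rw [Subgroup.zpowers_le]; exact hy
    have hne : X ≠ Subgroup.zpowers y := by
      intro h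
      apply hXD
      rw [h]; exact hYD
    obtain ⟨A, hAP, hAe, hXA, hAcard⟩ := ea_of_two_order_p hPp hXP (hYD.trans hD'P) hX hYcard hne
    exact ⟨A, hAe, hcardA A (hAP.trans hPM) hAe hAcard, hXA⟩

end Cfsg.Agent.Lib.Helper20.BG
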